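import Cfsg.Agent.H15.J2.Chain
import Cfsg.Agent.H8.J2Fusion.Data

/-!
Kernel checks on words for the Sylow 2-subgroup of the Hall-Janko group on 315 lines.
-/

set_option autoImplicit false

namespace Cfsg.Agent.H8.J2Fusion

open Cfsg.Agent.H15.J2

/-- The test that two words name different elements. -/
def diffOn (u v : List ℕ) : Bool :=
  validW u && (validW v && six.any fun x => !(Nat.beq (wAct u x) (wAct v x)))

theorem diffOn_sound {u v : List ℕ} (h : diffOn u v = true) : wPerm u ≠ wPerm v := by
  simp only [diffOn, Bool.and_eq_true, List.any_eq_true] at h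
  obtain ⟨hu, hv, x, hx, hne⟩ := h
  intro he
  have hx' : x < 315 := by
    revert hne; revert x
    simp [six]
  have e : wAct u x = wAct v x := by
    rw [← wPerm_apply hu ⟨x, hx'⟩, he, wPerm_apply hv ⟨x, hx'⟩]
  simp [e] at hne

/-- A generator of the Sylow subgroup. -/
def gw (j : ℕ) : List ℕ := sylGens.getD j []

/-- An element of the Sylow subgroup. -/
def sw (i : ℕ) : List ℕ := (sylWords.getD i []).flatMap gw

/-- A generator of the radical subgroup. -/
def rw' (k : ℕ) : List ℕ := sw (radIdx.getD k 0)

/-- An element of the radical subgroup. -/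
def radWord (w : List ℕ) : List ℕ := w.flatMap rw'

/-- One of the two-elements. -/
def uw (j : ℕ) : List ℕ := (twoGens.getD j ([], 0)).1

/-- The indices of the radical subgroup. -/
def radList : List ℕ := radElts.map fun a => a.1

def sylOK : Bool :=
  ((List.range 7).all fun j => sameOn (gw j ++ [0]) (0 :: gw j)) &&
  ((List.range 128).all fun i => (List.range 7).all fun j =>
    let n := (sylNext.getD i []).getD j 0
    Nat.blt n 128 && sameOn (sw i ++ gw j) (sw n)) &&
  ((List.range 128).all fun i => (List.range i).all fun j => diffOn (sw i) (sw j)) &&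
  Nat.beq (sylWords.getD 0 [0]).length 0

def centerOK : Bool :=
  sameOn (sw tIdx) [0] && Nat.blt tIdx 128 &&
  (List.range 128).all fun i => Nat.beq i 0 || Nat.beq i tIdx ||
    (List.range 7).any fun j => diffOn (sw i ++ gw j) (gw j ++ sw i)

def centOK : Bool :=
  (lvlGens1.all fun l => sameOn [l, 0] [0, l]) &&
  lvlTrans0.all fun ws => Nat.beq (wAct ws 304) 304 || diffOn (ws ++ [0]) (0 :: ws)

def radOK : Bool :=
  (radElts.all fun a => Nat.blt a.1 128 && sameOn (sw a.1) (radWord a.2)) &&
  ((List.range 5).all fun k => radList.contains (radIdx.getD k 0)) &&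
  radList.contains tIdx &&
  ((List.range lvlGens1.length).all fun li => (List.range 5).all fun k =>
    let c := (radConj.getD li []).getD k 0
    radList.contains c && sameOn (lvlGens1.getD li 0 :: rw' k) (sw c ++ [lvlGens1.getD li 0])) &&
  (List.range 128).all fun i => radList.contains i ||
    (List.range 5).any fun k => diffOn (sw i ++ rw' k) (rw' k ++ sw i)

def twoOK : Bool :=
  (twoGens.all fun a => (a.1.all fun l => lvlGens1.contains l) &&
    sameOn (List.replicate (2 ^ a.2) a.1).flatten []) &&
  (List.range lvlGens1.length).all fun li =>
    ((twoExpr.getD li []).all fun j => Nat.blt j twoGens.length) &&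
      sameOn [lvlGens1.getD li 0] ((twoExpr.getD li []).flatMap uw)

/-- Check of the derivation. -/
def runSteps : List (Sum (ℕ × ℕ × ℕ) (ℕ × List ℕ × ℕ)) → List ℕ → Option (List ℕ)
  | [], known => some known
  | .inl (i, j, k) :: rest, known =>
    if known.contains i && known.contains j && Nat.blt k 128 && sameOn (sw i ++ sw j) (sw k) then
      runSteps rest (k :: known) else none
  | .inr (i, w, k) :: rest, known =>
    if known.contains i && Nat.blt k 128 && sameOn (w ++ sw i) (sw k ++ w) then
      runSteps rest (k :: known) else none

def stepsOK : Bool :=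
  match runSteps steps [tIdx] with
  | some known => (List.range 7).all fun j => known.any fun k => sameOn (gw j) (sw k)
  | none => false

theorem syl_ok : sylOK = true := by decide +kernel
theorem center_ok : centerOK = true := by decide +kernel
theorem cent_ok : centOK = true := by decide +kernel
theorem rad_ok : radOK = true := by decide +kernel
theorem two_ok : twoOK = true := by decide +kernel
theorem steps_ok : stepsOK = true := by decide +kernel

end Cfsg.Agent.H8.J2Fusion
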