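import Cfsg.Agent.H8.J2Fusion.Cert
import Cfsg.Agent.H94.ConstrainedSetup
import Cfsg.Agent.H94.SimpleCriterion
import Cfsg.Agent.H24.PGroupBasic

/-!
The 2-fusion system of the Hall-Janko group is simple.
-/

set_option autoImplicit false

namespace Cfsg.Agent.H8.J2Fusion

open Cfsg Cfsg.FusionSystem Cfsg.Agent Cfsg.Agent.H15.J2

variable {G : Type*} [Group G] (e : G ≃* G315)

/-- The element named by a word. -/
noncomputable def el (w : List ℕ) : G := e.symm ⟨wPerm w, wPerm_mem w⟩

theorem e_el (w : List ℕ) : (e (el e w) : P315) = wPerm w := by simp [el]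

theorem el_nil : el e [] = 1 := by
  apply e.injective; apply Subtype.ext
  simp [e_el, wPerm]

theorem el_append (u v : List ℕ) : el e (u ++ v) = el e u * el e v := by
  apply e.injective; apply Subtype.ext
  simp [e_el, wPerm_append]

theorem el_cons (l : ℕ) (v : List ℕ) : el e (l :: v) = el e [l] * el e v := el_append e [l] v

theorem el_of_same {u v : List ℕ} (h : sameOn u v = true) : el e u = el e v := by
  apply e.injective; apply Subtype.ext
  simp [e_el, sameOn_sound h]

theorem el_of_diff {u v : List ℕ} (h : diffOn u v = true) : el e u ≠ el e v := fun he =>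
  diffOn_sound h (by rw [← e_el e u, he, e_el])

theorem el_replicate (w : List ℕ) : ∀ n, el e (List.replicate n w).flatten = el e w ^ n
  | 0 => by simp [el_nil]
  | n + 1 => by rw [List.replicate_succ, List.flatten_cons, el_append, el_replicate w n, pow_succ']

theorem el_flatMap_mem {K : Subgroup G} (f : ℕ → List ℕ) : ∀ L : List ℕ,
    (∀ x ∈ L, el e (f x) ∈ K) → el e (L.flatMap f) ∈ K
  | [], _ => by simp [el_nil]
  | x :: L, h => by
    rw [List.flatMap_cons, el_append]
    exact K.mul_mem (h x (by simp)) (el_flatMap_mem f L fun y hy => h y (by simp [hy]))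

/-- The Sylow subgroup. -/
noncomputable def sylG : Subgroup G := Subgroup.closure (Set.range fun j : Fin 7 => el e (gw j))

theorem gw_mem (j : ℕ) : el e (gw j) ∈ sylG e := by
  by_cases h : j < 7
  · exact Subgroup.subset_closure ⟨⟨j, h⟩, rfl⟩
  · have hlen : sylGens.length = 7 := by decide +kernel
    rw [gw, List.getD_eq_getElem?_getD, List.getElem?_eq_none (by omega)]
    simp [el_nil]

theorem sw_mem (i : ℕ) : el e (sw i) ∈ sylG e := el_flatMap_mem e gw _ fun x _ => gw_mem e x

theorem sw_zero : el e (sw 0) = 1 := by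
  have h := syl_ok
  simp only [sylOK, Bool.and_eq_true] at h
  have h0 := Nat.eq_of_beq_eq_true h.2
  have : sylWords.getD 0 [] = [] := by decide +kernel
  rw [sw, this]
  simp [el_nil]

theorem mem_sylG_iff [Finite G] {x : G} : x ∈ sylG e ↔ ∃ i < 128, x = el e (sw i) := by
  refine ⟨fun hx => ?_, fun ⟨i, _, hi⟩ => hi ▸ sw_mem e i⟩
  rw [sylG, ← Subgroup.mem_toSubmonoid, Subgroup.closure_toSubmonoid_of_finite] at hx
  induction hx using Submonoid.closure_induction_right with
  | one => exact ⟨0, by norm_num, (sw_zero e).symm⟩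
  | mul_right y _ z hz ih =>
    obtain ⟨i, hi, rfl⟩ := ih
    obtain ⟨j, rfl⟩ := hz
    have h := syl_ok
    simp only [sylOK, Bool.and_eq_true, List.all_eq_true, List.mem_range] at h
    obtain ⟨hn, hs⟩ := h.1.1.2 i hi j j.isLt
    exact ⟨_, blt_lt hn, by rw [← el_append]; exact el_of_same e hs⟩

theorem card_sylG [Finite G] : Nat.card (sylG e) = 128 := by
  have hb : Function.Bijective (fun i : Fin 128 => (⟨el e (sw i), sw_mem e i⟩ : sylG e)) := by
    constructor
    · intro i j hij
      by_contra hne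
      have h := syl_ok
      simp only [sylOK, Bool.and_eq_true, List.all_eq_true, List.mem_range] at h
      rcases lt_or_gt_of_ne (fun hh : (i : ℕ) = j => hne (Fin.ext hh)) with hl | hl
      · exact el_of_diff e (h.1.2 j j.isLt i hl) (congrArg Subtype.val hij).symm
      · exact el_of_diff e (h.1.2 i i.isLt j hl) (congrArg Subtype.val hij)
    · rintro ⟨x, hx⟩
      obtain ⟨i, hi, rfl⟩ := (mem_sylG_iff e).1 hx
      exact ⟨⟨i, hi⟩, rfl⟩
  rw [← Nat.card_congr (Equiv.ofBijective _ hb), Nat.card_fin]

include e in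
theorem card_G : Nat.card G = 604800 := by
  rw [Nat.card_congr e.toEquiv, G315_card]

theorem sylG_index [Finite G] : (sylG e).index = 4725 := by
  have h := (sylG e).card_mul_index
  rw [card_sylG, card_G e] at h
  omega

/-- The central involution. -/
noncomputable def tG : G := el e [0]

theorem el_t : el e (sw tIdx) = tG e := by
  have h := center_ok
  simp only [centerOK, Bool.and_eq_true] at h
  exact el_of_same e h.1.1

theorem el_sw_singleton_comm (l : ℕ) (hl : l ∈ lvlGens1) :
    el e [l] * tG e = tG e * el e [l] := by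
  have h := cent_ok
  simp only [centOK, Bool.and_eq_true, List.all_eq_true] at h
  rw [tG, ← el_append, ← el_append]
  exact el_of_same e (h.1 l hl)

/-- The line stabiliser. -/
noncomputable def stabG : Subgroup G := (lvlGrp lvlGens1).comap (G315.subtype.comp e.toMonoidHom)

theorem mem_stabG {g : G} : g ∈ stabG e ↔ (e g : P315) base0 = base0 := by
  show (e g : P315) ∈ lvlGrp lvlGens1 ↔ _
  rw [mem_stab0]
  exact ⟨fun h => h.2, fun h => ⟨(e g).2, h⟩⟩

theorem lPerm_eq_wPerm (l : ℕ) : lPerm l = wPerm [l] := by simp [wPerm]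

theorem stabG_le {K : Subgroup G} (h : ∀ l ∈ lvlGens1, el e [l] ∈ K) : stabG e ≤ K := by
  intro g hg
  have h1 : lvlGrp lvlGens1 ≤ K.map (G315.subtype.comp e.toMonoidHom) := by
    rw [lvlGrp, Subgroup.closure_le]
    intro x hx
    obtain ⟨l, hl, rfl⟩ := List.mem_map.1 hx
    exact ⟨el e [l], h l hl, by simp [e_el, lPerm_eq_wPerm]⟩
  obtain ⟨k, hk, hke⟩ := h1 hg
  have : k = g := e.injective (Subtype.ext hke)
  exact this ▸ hk

theorem el_mem_stabG {w : List ℕ} (h : (w.all fun l => lvlGens1.contains l) = true) :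
    el e w ∈ stabG e := by
  show (e (el e w) : P315) ∈ lvlGrp lvlGens1
  rw [e_el]
  exact wPerm_lvl h

theorem commute_t_iff {g : G} : g * tG e = tG e * g ↔ g ∈ stabG e := by
  have hle : stabG e ≤ Subgroup.centralizer {tG e} := stabG_le e fun l hl =>
    Subgroup.mem_centralizer_singleton_iff.2 (el_sw_singleton_comm e l hl)
  refine ⟨fun hg => ?_, fun hg => Subgroup.mem_centralizer_singleton_iff.1 (hle hg)⟩
  set a := (e g : P315) base0
  have h := List.all_eq_true.1 trans_ok a (List.mem_range.2 a.isLt)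
  simp only [List.any_eq_true, Bool.and_eq_true] at h
  obtain ⟨ws, hws, hv, he⟩ := h
  have hwa : (wPerm ws : P315) base0 = a :=
    Fin.ext (by rw [wPerm_apply hv]; exact Nat.eq_of_beq_eq_true he)
  have hh : (el e ws)⁻¹ * g ∈ stabG e := by
    rw [mem_stabG, map_mul, map_inv]
    simp only [Subgroup.coe_mul, Subgroup.coe_inv, e_el, Equiv.Perm.mul_apply]
    rw [Equiv.Perm.coe_inv, Equiv.symm_apply_eq, hwa]
  have hc := Subgroup.mem_centralizer_singleton_iff.1 (hle hh)
  have hws_t : el e ws * tG e = tG e * el e ws := by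
    have : el e ws = g * ((el e ws)⁻¹ * g)⁻¹ := by group
    rw [this]
    exact (Commute.mul_left (show Commute g (tG e) from hg) (Commute.inv_left hc))
  have hcert := cent_ok
  simp only [centOK, Bool.and_eq_true, List.all_eq_true, Bool.or_eq_true] at hcert
  rcases hcert.2 ws hws with hb | hd
  · rw [mem_stabG]
    show a = base0
    refine Fin.ext ?_
    rw [← hwa, wPerm_apply hv]
    exact Nat.eq_of_beq_eq_true hb
  · refine absurd ?_ (el_of_diff e hd)
    rw [el_append, el_cons e 0 ws]
    exact hws_t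

theorem sylG_le_stab : sylG e ≤ stabG e := by
  rw [sylG, Subgroup.closure_le]
  rintro _ ⟨j, rfl⟩
  have h := syl_ok
  simp only [sylOK, Bool.and_eq_true, List.all_eq_true, List.mem_range] at h
  refine (commute_t_iff e).1 ?_
  rw [tG, ← el_append, ← el_append]
  exact el_of_same e (h.1.1.1 j j.isLt)

theorem center_cases [Finite G] {x : G} (hx : x ∈ sylG e) (hc : ∀ y ∈ sylG e, x * y = y * x) :
    x = 1 ∨ x = tG e := by
  obtain ⟨i, hi, rfl⟩ := (mem_sylG_iff e).1 hx
  have h := center_ok
  simp only [centerOK, Bool.and_eq_true, List.all_eq_true, List.mem_range, Bool.or_eq_true,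
    List.any_eq_true] at h
  rcases h.2 i hi with (h0 | ht) | ⟨j, hj, hd⟩
  · rw [Nat.eq_of_beq_eq_true h0, sw_zero]; exact Or.inl rfl
  · rw [Nat.eq_of_beq_eq_true ht, el_t]; exact Or.inr rfl
  · refine absurd ?_ (el_of_diff e hd)
    rw [el_append, el_append]
    exact hc _ (gw_mem e j)

theorem t_ne_one : tG e ≠ 1 := by
  rw [← el_nil e, tG]
  exact el_of_diff e (by decide +kernel)

theorem t_mem : tG e ∈ sylG e := el_t e ▸ sw_mem e _

/-- The radical subgroup. -/
noncomputable def radG : Subgroup G := Subgroup.closure (Set.range fun k : Fin 5 => el e (rw' k))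

theorem rad_le_syl : radG e ≤ sylG e := by
  rw [radG, Subgroup.closure_le]
  rintro _ ⟨k, rfl⟩
  exact sw_mem e _

theorem rw'_mem (k : ℕ) : el e (rw' k) ∈ radG e := by
  by_cases h : k < 5
  · exact Subgroup.subset_closure ⟨⟨k, h⟩, rfl⟩
  · have hlen : radIdx.length = 5 := by decide +kernel
    rw [rw', List.getD_eq_getElem?_getD, List.getElem?_eq_none (by omega)]
    simp [sw_zero]

theorem radList_mem {i : ℕ} (hi : i ∈ radList) : el e (sw i) ∈ radG e := by
  obtain ⟨a, ha, rfl⟩ := List.mem_map.1 hi
  have h := rad_ok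
  simp only [radOK, Bool.and_eq_true, List.all_eq_true] at h
  rw [el_of_same e (h.1.1.1.1 a ha).2]
  exact el_flatMap_mem e rw' _ fun x _ => rw'_mem e x

theorem t_mem_rad : tG e ∈ radG e := by
  have h := rad_ok
  simp only [radOK, Bool.and_eq_true, List.contains_iff_mem] at h
  exact el_t e ▸ radList_mem e h.1.1.2

theorem stab_le_normalizer [Finite G] : stabG e ≤ Subgroup.normalizer (radG e : Set G) := by
  refine stabG_le e fun l hl => ?_
  obtain ⟨li, hli, rfl⟩ := List.mem_iff_getElem.1 hl
  refine Subgroup.mem_normalizer_fintype fun n hn => ?_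
  have hle : radG e ≤ (radG e).comap (MulAut.conj (el e [lvlGens1[li]])).toMonoidHom := by
    rw [radG, Subgroup.closure_le]
    rintro _ ⟨k, rfl⟩
    have h := rad_ok
    simp only [radOK, Bool.and_eq_true, List.all_eq_true, List.mem_range, List.contains_iff_mem] at h
    obtain ⟨hc, hs⟩ := h.1.2 li hli k k.isLt
    have heq := el_of_same e hs
    rw [el_append, el_cons, List.getD_eq_getElem?_getD, List.getElem?_eq_getElem hli,
      Option.getD_some] at heq
    show el e [lvlGens1[li]] * el e (rw' k) * (el e [lvlGens1[li]])⁻¹ ∈ radG e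
    rw [heq, mul_inv_cancel_right]
    exact radList_mem e hc
  exact hle hn

theorem stab_le_twoGenerated [Finite G] : stabG e ≤ Subgroup.closure
    {g : G | g ∈ Subgroup.normalizer (radG e : Set G) ∧ ∃ k : ℕ, orderOf g = 2 ^ k} := by
  refine stabG_le e fun l hl => ?_
  obtain ⟨li, hli, rfl⟩ := List.mem_iff_getElem.1 hl
  have h := two_ok
  simp only [twoOK, Bool.and_eq_true, List.all_eq_true, List.mem_range] at h
  obtain ⟨hj, hs⟩ := h.2 li hli
  rw [List.getD_eq_getElem?_getD (l := lvlGens1), List.getElem?_eq_getElem hli, Option.getD_some] at hs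
  rw [el_of_same e hs]
  refine el_flatMap_mem e uw _ fun j hjm => Subgroup.subset_closure ?_
  have hjl := blt_lt (hj j hjm)
  have hmem : twoGens.getD j ([], 0) ∈ twoGens := by
    rw [List.getD_eq_getElem?_getD, List.getElem?_eq_getElem hjl]
    exact List.getElem_mem hjl
  obtain ⟨hw, hp⟩ := h.1 _ hmem
  refine ⟨stab_le_normalizer e (el_mem_stabG e (List.all_eq_true.2 hw)), ?_⟩
  have hpow := el_of_same e hp
  rw [el_replicate, el_nil] at hpow
  obtain ⟨k, -, hk⟩ := (Nat.dvd_prime_pow Nat.prime_two).1 (orderOf_dvd_of_pow_eq_one hpow)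
  exact ⟨k, hk⟩

variable [Finite G]

/-- Two-elements centralising the radical subgroup lie in it. -/
theorem mem_rad_of_centralizes {x : G} (hx : IsPGroup 2 (Subgroup.zpowers x))
    (hc : ∀ r ∈ radG e, x * r = r * x) : x ∈ radG e := by
  have : Fact (Nat.Prime 2) := ⟨Nat.prime_two⟩
  have hxH : x ∈ stabG e := (commute_t_iff e).1 (hc _ (t_mem_rad e))
  have hS2 : IsPGroup 2 (sylG e) := IsPGroup.of_card (n := 7) (by rw [card_sylG]; norm_num)
  let P : Sylow 2 (stabG e) :=
    (hS2.comap_of_injective (stabG e).subtype Subtype.val_injective).toSylow (by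
      have h1 : ((sylG e).comap (stabG e).subtype).index ∣ (sylG e).index :=
        Dvd.intro _ (Subgroup.relIndex_mul_index (sylG_le_stab e))
      intro h2
      have := h2.trans h1
      rw [sylG_index] at this
      norm_num at this)
  obtain ⟨Q, hQ⟩ := (hx.comap_of_injective (stabG e).subtype Subtype.val_injective).exists_le_sylow
  obtain ⟨h, hh⟩ := MulAction.exists_smul_eq (stabG e) P Q
  have hx' : (⟨x, hxH⟩ : stabG e) ∈ (h • P : Sylow 2 (stabG e)) := by
    rw [hh]; exact hQ (Subgroup.mem_zpowers x)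
  rw [← SetLike.mem_coe, Sylow.coe_smul, Set.mem_smul_set] at hx'
  obtain ⟨s, hs, hse⟩ := hx'
  have hse' : (h : G) * (s : G) * (h : G)⁻¹ = x := congrArg Subtype.val hse
  have hsS : (s : G) ∈ sylG e := hs
  have hnorm := stab_le_normalizer e h.2
  have hsc : ∀ r ∈ radG e, (s : G) * r = r * s := by
    intro r hr
    have h1 := hc _ ((Subgroup.mem_normalizer_iff.1 hnorm r).1 hr)
    rw [← hse'] at h1
    simp only [mul_assoc, inv_mul_cancel_left] at h1
    have := mul_left_cancel h1
    rw [← mul_assoc, ← mul_assoc] at this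
    exact mul_right_cancel this
  obtain ⟨i, hi, hsi⟩ := (mem_sylG_iff e).1 hsS
  have hcert := rad_ok
  simp only [radOK, Bool.and_eq_true, List.all_eq_true, List.mem_range, Bool.or_eq_true,
    List.any_eq_true, List.contains_iff_mem] at hcert
  rcases hcert.2 i hi with hin | ⟨k, -, hd⟩
  · rw [← hse', hsi]
    exact (Subgroup.mem_normalizer_iff.1 hnorm _).1 (radList_mem e hin)
  · refine absurd ?_ (el_of_diff e hd)
    rw [el_append, el_append, ← hsi]
    exact hsc _ (rw'_mem e k)

theorem run_mem {T : Subgroup G} (hT : ∀ x ∈ T, ∀ g : G, g * x * g⁻¹ ∈ sylG e → g * x * g⁻¹ ∈ T) :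
    ∀ (st : List (Sum (ℕ × ℕ × ℕ) (ℕ × List ℕ × ℕ))) (known out : List ℕ),
      (∀ i ∈ known, el e (sw i) ∈ T) → runSteps st known = some out →
      ∀ i ∈ out, el e (sw i) ∈ T
  | [], known, out, hk, h => by
    rw [runSteps, Option.some_inj] at h
    exact h ▸ hk
  | .inl (i, j, k) :: rest, known, out, hk, h => by
    rw [runSteps] at h
    split at h
    · rename_i hc
      simp only [Bool.and_eq_true, List.contains_iff_mem] at hc
      refine run_mem hT rest _ out (fun a ha => ?_) h
      rcases List.mem_cons.1 ha with rfl | ha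
      · rw [← el_of_same e hc.2, el_append]
        exact T.mul_mem (hk _ hc.1.1.1) (hk _ hc.1.1.2)
      · exact hk a ha
    · exact absurd h (by simp)
  | .inr (i, w, k) :: rest, known, out, hk, h => by
    rw [runSteps] at h
    split at h
    · rename_i hc
      simp only [Bool.and_eq_true, List.contains_iff_mem] at hc
      refine run_mem hT rest _ out (fun a ha => ?_) h
      rcases List.mem_cons.1 ha with rfl | ha
      · have hw := el_of_same e hc.2
        rw [el_append, el_append] at hw
        have he : el e (sw a) = el e w * el e (sw i) * (el e w)⁻¹ := by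
          rw [hw, mul_inv_cancel_right]
        rw [he]
        exact hT _ (hk _ hc.1.1) _ (he ▸ sw_mem e a)
      · exact hk a ha
    · exact absurd h (by simp)

theorem simple_std (S : Sylow 2 G) (hS : (S : Subgroup G) = sylG e) :
    (groupFusionSystem (S : Subgroup G)).IsSimple 2 := by
  have : Fact (Nat.Prime 2) := ⟨Nat.prime_two⟩
  have hS1 : (S : Subgroup G) ≠ ⊥ := fun h => by
    rw [hS] at h
    have := card_sylG e
    rw [h, Subgroup.card_bot] at this
    norm_num at this
  refine H94.isSimple_groupFusion S hS1 (fun T hT => ?_) ?_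
  · -- strongly closed subgroups
    by_cases hT1 : T = ⊥
    · exact Or.inl hT1
    refine Or.inr (le_antisymm hT.1 ?_)
    have hconj : ∀ x ∈ T, ∀ g : G, g * x * g⁻¹ ∈ sylG e → g * x * g⁻¹ ∈ T := fun x hx g h =>
      H94.conj_mem_of_stronglyClosed_group hT hx (hS.symm ▸ h)
    have : (T.subgroupOf (S : Subgroup G)).Normal := ⟨fun n hn g => by
      refine hconj _ hn g ?_
      rw [← hS]
      exact (g * n * g⁻¹).2⟩
    have hne : T.subgroupOf (S : Subgroup G) ≠ ⊥ := fun h => hT1 (by
      rw [Subgroup.subgroupOf_eq_bot] at h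
      exact h.eq_bot_of_le hT.1)
    obtain ⟨⟨z, hzT, hzC⟩, hz1⟩ := Subgroup.ne_bot_iff_exists_ne_one.1
      (H24.inf_center_ne_bot S.isPGroup' hne)
    have hz : (z : G) = tG e := by
      refine (center_cases e (x := (z : G)) (hS ▸ z.2) fun y hy => ?_).resolve_left
        fun h => hz1 (Subtype.ext (Subtype.ext h))
      exact (congrArg Subtype.val (Subgroup.mem_center_iff.1 hzC ⟨y, hS.symm ▸ hy⟩)).symm
    have htT : tG e ∈ T := hz ▸ hzT
    have h := steps_ok
    unfold stepsOK at h
    rw [hS, sylG, Subgroup.closure_le]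
    rintro _ ⟨j, rfl⟩
    cases hr : runSteps steps [tIdx] with
    | none => rw [hr] at h; exact absurd h (by simp)
    | some known =>
      rw [hr] at h
      simp only [List.all_eq_true, List.mem_range, List.any_eq_true] at h
      obtain ⟨k, hk, hs⟩ := h j j.isLt
      show el e (gw j) ∈ T
      rw [el_of_same e hs]
      exact run_mem e hconj steps [tIdx] known (fun i hi => by
        rw [List.mem_singleton.1 hi, el_t]; exact htT) hr k hk
  · -- the automizer
    intro α hα
    obtain ⟨g, -, hg⟩ := H93.mem_autInducedBy.1 hα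
    have hgH : g ∈ stabG e := by
      rw [← commute_t_iff]
      have ht : tG e ∈ (S : Subgroup G) := hS ▸ t_mem e
      have hgt := hg ⟨_, ht⟩
      have hcomm : ∀ y ∈ sylG e, g * tG e * g⁻¹ * y = y * (g * tG e * g⁻¹) := by
        intro y hy
        obtain ⟨y', hy'⟩ := α.surjective ⟨y, hS.symm ▸ hy⟩
        have h2 := hg y'
        rw [hy'] at h2
        have hc : tG e * (y' : G) = (y' : G) * tG e :=
          ((commute_t_iff e).2 (sylG_le_stab e (hS ▸ y'.2))).symm
        rw [show y = g * (y' : G) * g⁻¹ from h2]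
        calc g * tG e * g⁻¹ * (g * (y' : G) * g⁻¹) = g * (tG e * y') * g⁻¹ := by group
          _ = g * (y' * tG e) * g⁻¹ := by rw [hc]
          _ = _ := by group
      rcases center_cases e (x := g * tG e * g⁻¹) (hS ▸ hgt ▸ (α ⟨_, ht⟩).2) hcomm with h | h
      · refine absurd ?_ (t_ne_one e)
        rwa [mul_inv_eq_one, mul_eq_left] at h
      · exact mul_inv_eq_iff_eq_mul.1 h
    have hR : radG e ≤ (S : Subgroup G) := hS ▸ rad_le_syl e
    refine Subgroup.mem_iSup_of_mem (radG e) (Subgroup.mem_iSup_of_mem ⟨?_, hR, fun Q hQ => ?_⟩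
      (H93.mem_autInducedBy.2 ⟨g, stab_le_twoGenerated e hgH, hg⟩))
    · refine ⟨hR, fun Q _ => ?_⟩
      refine (Nat.card_le_card_of_injective (Subgroup.inclusion (inf_le_left :
        normalizerIn (S : Subgroup G) Q ≤ S)) (Subgroup.inclusion_injective _)).trans (le_of_eq ?_)
      rw [normalizerIn, inf_eq_left.2 ((hS ▸ sylG_le_stab e :
        (S : Subgroup G) ≤ stabG e).trans (stab_le_normalizer e))]
    · obtain ⟨-, -, a, rfl⟩ := (H93.isConj_groupFusion_iff S).1 hQ
      rintro x ⟨hxS, hxC⟩
      refine H93.mem_map_conj.2 (mem_rad_of_centralizes e ?_ fun r hr => ?_)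
      · intro y
        obtain ⟨k, hk⟩ := Subgroup.mem_zpowers_iff.1 y.2
        obtain ⟨m, hm⟩ := S.isPGroup' (⟨x, hxS⟩ ^ k)
        refine ⟨m, Subtype.ext ?_⟩
        have hm' := congrArg Subtype.val hm
        simp only [SubgroupClass.coe_pow, SubgroupClass.coe_zpow, Subgroup.coe_one] at hm'
        rw [SubgroupClass.coe_pow, ← hk, Subgroup.coe_one,
          show a⁻¹ * x * a = MulAut.conj a⁻¹ x by simp [mul_assoc], ← map_zpow, ← map_pow, hm', map_one]
      · have := Subgroup.mem_centralizer_iff.1 hxC (a * r * a⁻¹) ⟨r, hr, rfl⟩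
        calc a⁻¹ * x * a * r = a⁻¹ * (x * (a * r * a⁻¹)) * a := by group
          _ = a⁻¹ * ((a * r * a⁻¹) * x) * a := by rw [← this]
          _ = _ := by group

/-- The 2-fusion system of the Hall-Janko group is simple. -/
theorem simple_of_equiv (e : G ≃* G315) (S : Sylow 2 G) :
    (groupFusionSystem (S : Subgroup G)).IsSimple 2 := by
  have : Fact (Nat.Prime 2) := ⟨Nat.prime_two⟩
  have hcard : Nat.card (sylG e) = 2 ^ 7 := by rw [card_sylG]; norm_num
  let P : Sylow 2 G := (IsPGroup.of_card hcard).toSylow (by rw [sylG_index]; norm_num)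
  obtain ⟨g, hg⟩ := MulAction.exists_smul_eq G S P
  set e' : G ≃* G315 := (MulAut.conj g).trans e
  refine simple_std e' S ?_
  have hel : ∀ w, el e' w = g⁻¹ * el e w * g := fun w => by
    show (MulAut.conj g).symm (el e w) = _
    rw [MulAut.conj_symm_apply]
  have hsyl : sylG e' = (sylG e).map (MulAut.conj g⁻¹).toMonoidHom := by
    rw [sylG, sylG, MonoidHom.map_closure, ← Set.range_comp]
    refine congrArg Subgroup.closure (congrArg Set.range (funext fun j => ?_))
    rw [hel]
    simp
  rw [hsyl, show sylG e = (P : Subgroup G) from rfl, ← hg, Sylow.coe_subgroup_smul]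
  ext x
  rw [H93.mem_map_conj, inv_inv, Subgroup.mem_pointwise_smul_iff_inv_smul_mem]
  simp [MulAut.smul_def, mul_assoc]

end Cfsg.Agent.H8.J2Fusion
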